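import Cfsg.Agent.N2.Cl.FrO.Main

/-!
# N2 (S3519), orthogonal groups: stabilisers of frames in `Ω`, without `Ctx` (helper76)

`good_two'` (two blocks), `good_even_fr` (isometric blocks of even dimension), `good_lines` (orthogonal bases).
-/

set_option autoImplicit false
set_option linter.unusedSectionVars false

namespace Cfsg.Agent.N2C.FrO

open Module QuadraticMap Cfsg.Agent.N2C.Cyc
open Cfsg.Agent.LieClassical.OrthCore
open Cfsg.Agent.LieClassical.OrthFinite (good_of_finite)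
open Cfsg.Agent.H955 (res perp)
open Cfsg.Agent.H182.Sign (Sg)
open Cfsg.Agent.N2C.FixO (St Ex im im_eq)

variable {K V X κ : Type} [Field K] [Fintype K] [AddCommGroup V] [Module K V] [Finite V] [AddCommGroup X] [Module K X]
  [Finite X] [Fintype κ] {Q : QuadraticForm K V} {R : QuadraticForm K X} {B : Subgroup (E Q)} {W : κ → Submodule K V}

/-- **two blocks** -/
theorem good_two' (hQ : Nondeg Q) (h7 : 7 ≤ finrank K V) {W : Submodule K V} (n : Nondeg (res Q W)) (h0 : W ≠ ⊥)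
    (h1 : perp Q W ≠ ⊥) (hB : ∀ g, g ∈ B ↔ St Q W g) : FP3.Good B :=
  (em (Ex Q W)).elim (good_ex hQ h7 h0 hB) (FixO.good_two hQ h7 n h0 h1 hB)

/-- the stabiliser of the frame is the monomial group -/
theorem good_fr (hR : Nondeg R) (h7 : 7 ≤ finrank K V) (ψ : ∀ i, X ≃ₗ[K] W i) (hq : ∀ i x, Q (ψ i x) = R x)
    (ho : ∀ i k, i ≠ k → ∀ v ∈ W i, ∀ w ∈ W k, polar Q v w = 0) (hs : iSup W = ⊤)
    (hB : ∀ g : E Q, g ∈ B ↔ ∀ i, ∃ k, im g (W i) = W k)
    (hG : 7 ≤ Fintype.card κ * finrank K X → GT R (Fintype.card κ)) : FP3.Good B := by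
  classical
  have : Module.Finite K X := Module.Finite.of_finite
  have h0 : ∀ (ι : Type) [Fintype ι] [DecidableEq ι] (d : ι ≃ κ), ∃ Φ : (ι → X) ≃ₗ[K] V, (∀ v, Q (Φ v) = pq ι R v) ∧
      ∀ i x, Φ (Pi.single i x) = ψ (d i) x := fun ι _ _ d => by
    let Φ : (ι → X) →ₗ[K] V := LinearMap.lsum K (fun _ => X) K fun i => (W (d i)).subtype ∘ₗ (ψ (d i)).toLinearMap
    have h0 : ∀ v, Φ v = ∑ i, (ψ (d i) (v i) : V) := fun v => LinearMap.sum_apply _ _ v
    have h2 : ∀ v, Q (Φ v) = pq ι R v := fun v => by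
      rw [pi_apply, h0, Q_sum _ _ fun i j hij => ho _ _ (d.injective.ne hij) _ (ψ _ _).2 _ (ψ _ _).2]
      exact Finset.sum_congr rfl fun i _ => hq _ _
    have h3 : ∀ i x, Φ (Pi.single i x) = ψ (d i) x := fun i x => LinearMap.lsum_piSingle K (fun _ => X) K _ i x
    refine ⟨LinearEquiv.ofBijective Φ ⟨inj_emb (nondeg_pq hR) h2, LinearMap.range_eq_top.1 (top_unique (hs.ge.trans
      (iSup_le fun k w hw => ?_)))⟩, h2, h3⟩
    obtain ⟨i, rfl⟩ := d.surjective k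
    exact ⟨_, (h3 i ((ψ _).symm ⟨w, hw⟩)).trans (congrArg Subtype.val ((ψ _).apply_symm_apply _))⟩
  obtain ⟨Φ, h1, -⟩ := h0 κ (Equiv.refl κ)
  have hQ := H955.nondeg_of_equiv Φ h1 (nondeg_pq hR)
  have h8 : 7 ≤ Fintype.card κ * finrank K X := by rwa [← finrank_pq, Φ.finrank_eq]
  have : Nontrivial X := Module.nontrivial_of_finrank_pos (R := K) (Nat.pos_of_ne_zero fun k => by rw [k] at h8; omega)
  obtain ⟨ι, _, _, hι, hG⟩ := hG h8
  obtain ⟨d⟩ : Nonempty (ι ≃ κ) := ⟨Fintype.equivOfCardEq hι⟩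
  obtain ⟨Φ, h2, h3⟩ := h0 ι d
  have h4 : ∀ v, pq ι R (Φ.symm v) = Q v := fun v => by rw [← h2, Φ.apply_symm_apply]
  obtain ⟨π, h5⟩ : ∃ π : E (pq ι R) →* E Q, ∀ g v, (π g).1 (Φ v) = Φ (g.1 v) :=
    ⟨((Emb.eqv Φ h2).up.comp (E _).subtype).codRestrict (E Q) fun g =>
      E2_le_E (good_of_finite hQ (by omega)) (Emb.up_E2 _ (E_le_E2 g.2)), fun g => Emb.eqv_up Φ h2 g.1⟩
  have h6 : Function.Surjective π := fun g => ⟨⟨(Emb.eqv Φ.symm h4).up g, E2_le_E (good_of_finite (nondeg_pq hR)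
    (by rw [finrank_pq, hι]; omega)) (Emb.up_E2 _ (E_le_E2 g.2))⟩, Subtype.ext (LinearEquiv.ext fun v => by
      obtain ⟨w, rfl⟩ := Φ.symm.symm.surjective v
      rw [LinearEquiv.symm_symm, h5, ← Φ.symm_apply_apply w, Emb.eqv_up, Φ.apply_symm_apply, Φ.apply_symm_apply])⟩
  have := finL K (ι → X)
  have := finL K V
  refine (N2.good_comap π h6 _).1 ((congrArg FP3.Good ?_).mp hG)
  refine Subgroup.ext fun g => ⟨?_, fun hg => mem_Wr (g := g.1) (E_le_O g.2) fun i => ?_⟩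
  · rintro ⟨σ, a, -, hg⟩
    refine (hB _).2 fun k => ?_
    obtain ⟨i, rfl⟩ := d.surjective k
    refine ⟨d (σ i), im_eq (fun w hw => ?_) ((ψ _).finrank_eq.symm.trans (ψ _).finrank_eq).le⟩
    obtain ⟨x, hx⟩ := (ψ _).surjective ⟨w, hw⟩
    rw [show w = ψ _ x from congrArg Subtype.val hx.symm, ← h3, h5, show g.1 = _ from hg, mon_single, h3]
    exact (ψ _ _).2
  · obtain ⟨k, hk⟩ := (hB _).1 hg (d i)
    obtain ⟨j, rfl⟩ := d.surjective k
    refine ⟨j, fun x => ?_⟩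
    obtain ⟨y, hy⟩ := (ψ _).surjective ⟨_, hk.le ⟨_, (ψ _ x).2, rfl⟩⟩
    exact ⟨y, Φ.injective (by rw [← h5, h3, h3, hy]; rfl)⟩

/-- **isometric blocks of even dimension** -/
theorem good_even_fr (h7 : 7 ≤ finrank K V) {j : ℕ} {ε : ℤ} (hW : ∀ i, Sg (res Q (W i)) j ε)
    (ho : ∀ i k, i ≠ k → ∀ v ∈ W i, ∀ w ∈ W k, polar Q v w = 0) (hs : iSup W = ⊤) (h3 : 3 ≤ Fintype.card κ) (hj : j ≠ 0)
    (hx : ε = 1 → j = 1 → 3 < Fintype.card K) (hB : ∀ g : E Q, g ∈ B ↔ ∀ i, ∃ k, im g (W i) = W k) : FP3.Good B := by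
  obtain ⟨i⟩ : Nonempty κ := Fintype.card_pos_iff.1 (by omega)
  obtain ⟨X, _, _, _, R, hR, hG⟩ : Mo K j ε := by
    rcases (hW i).eps with rfl | rfl
    exacts [mo_plus hj (hx rfl), mo_minus hj]
  choose ψ hψ using fun i => hR.exists_equiv (hW i)
  exact good_fr hR.nondeg h7 ψ hψ ho hs hB fun h8 => hG _ h3 (hR.dim ▸ h8)

/-- **orthogonal bases of vectors of equal norm** -/
theorem good_lines (h2 : (2 : K) ≠ 0) (h7 : 7 ≤ finrank K V) (v : κ → V) {c : K} (hc : c ≠ 0) (hv : ∀ i, Q (v i) = c)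
    (ho : ∀ i k, i ≠ k → polar Q (v i) (v k) = 0) (hs : ⨆ i, K ∙ v i = ⊤)
    (hB : ∀ g : E Q, g ∈ B ↔ ∀ i, ∃ k, im g (K ∙ v i) = K ∙ v k) : FP3.Good B := by
  have h0 : ∀ i, v i ≠ 0 := fun i k => hc (by rw [← hv i, k, map_zero])
  have hR : Nondeg (c • QuadraticMap.sq : QuadraticForm K K) := fun x hx => by
    have h1 := hx 1
    simp only [polar, smul_apply, sq_apply, smul_eq_mul] at h1
    exact (mul_eq_zero.1 (show 2 * c * x = 0 by linear_combination h1)).resolve_left (mul_ne_zero h2 hc)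
  refine good_fr hR h7 (fun i => LinearEquiv.toSpanNonzeroSingleton K V (v i) (h0 i)) (fun i x => ?_)
    (fun i k hik a ha b hb => ?_) hs hB fun h8 => gt_odd hR (j := 0) (finrank_self K) (one_mem _)
      ⟨1, fun x => ⟨Polynomial.C x, by simp⟩⟩ odd_one (one_pow 1) (fun _ => rfl) ?_ ?_
  · rw [LinearEquiv.toSpanNonzeroSingleton_apply, QuadraticMap.map_smul, hv, smul_apply, sq_apply, smul_eq_mul, smul_eq_mul,
      mul_comm]
  · obtain ⟨s, rfl⟩ := Submodule.mem_span_singleton.1 ha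
    obtain ⟨t, rfl⟩ := Submodule.mem_span_singleton.1 hb
    rw [polar_smul_left, polar_smul_right, ho i k hik, smul_zero, smul_zero]
  all_goals rw [finrank_self] at h8; omega

end Cfsg.Agent.N2C.FrO
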